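import Mathlib

/-! `k`-closures of permutation groups; affine maps. -/

namespace CF.Recog

theorem mem_of_base {Ω : Type*} (G : Subgroup (Equiv.Perm Ω)) {k : ℕ} (α : Fin k → Ω)
    (hbase : ∀ g ∈ G, (∀ i, g (α i) = α i) → g = 1) (σ : Equiv.Perm Ω)
    (hσ : ∀ t : Fin (k + 1) → Ω, ∃ g ∈ G, ∀ i, σ (t i) = g (t i)) : σ ∈ G := by
  rcases isEmpty_or_nonempty Ω with h | ⟨⟨x⟩⟩
  · rw [Subsingleton.elim σ 1]; exact G.one_mem
  obtain ⟨g, hg, e⟩ := hσ (Fin.cons x α)
  refine (Equiv.ext fun y => ?_ : g = σ) ▸ hg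
  obtain ⟨h, hh, f⟩ := hσ (Fin.cons y α)
  have := hbase _ (G.mul_mem (G.inv_mem hg) hh) fun i => by
    have := (f i.succ).symm.trans (e i.succ)
    simp only [Fin.cons_succ] at this
    simp [this]
  rw [inv_mul_eq_one.1 this]
  exact (f 0).symm

variable {F V : Type*} [Field F] [AddCommGroup V] [Module F V]

/-- a permutation that agrees with an affine map on every triple is affine (odd characteristic) -/
theorem affine_of_triples (h2 : (2 : F) ≠ 0) (σ : Equiv.Perm V)
    (h : ∀ t : Fin 3 → V, ∃ (A : V ≃ₗ[F] V) (b : V), ∀ i, σ (t i) = A (t i) + b) :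
    ∃ (A : V ≃ₗ[F] V) (b : V), ∀ x, σ x = A x + b := by
  have k : ∀ (x y : V) (c : F), σ (x + c • (y - x)) = σ x + c • (σ y - σ x) := fun x y c => by
    obtain ⟨A, b, e⟩ := h ![x, y, x + c • (y - x)]
    rw [show σ x = A x + b from e 0, show σ y = A y + b from e 1,
      show σ (x + c • (y - x)) = A (x + c • (y - x)) + b from e 2]
    simp only [map_add, map_smul, map_sub]; module
  have s : ∀ (c : F) (y : V), σ (c • y) - σ 0 = c • (σ y - σ 0) := fun c y => by
    have := k 0 y c
    rw [zero_add, sub_zero] at this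
    rw [this, add_sub_cancel_left]
  let τ : V →ₗ[F] V :=
    { toFun x := σ x - σ 0
      map_add' x y := by
        rw [show x + y = (2 : F) • (x + (2 : F)⁻¹ • (y - x)) by
          rw [smul_add, smul_inv_smul₀ h2]; module, s, k, smul_sub, smul_add, smul_inv_smul₀ h2]
        module
      map_smul' := s }
  exact ⟨.ofBijective τ ((Equiv.subRight (σ 0)).bijective.comp σ.bijective), σ 0,
    fun x => (sub_add_cancel _ _).symm⟩

theorem exists_equiv_of_li [FiniteDimensional F V] {κ : Type*} {x y : κ → V}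
    (hx : LinearIndependent F x) (hy : LinearIndependent F y) :
    ∃ g : V ≃ₗ[F] V, ∀ k, g (x k) = y k := by
  obtain ⟨g, hg⟩ := Submodule.exists_linearEquiv_restrict_eq
    (hx.linearCombinationEquiv.symm ≪≫ₗ hy.linearCombinationEquiv)
  refine ⟨g, fun k => ?_⟩
  have h1 : (hx.linearCombinationEquiv (Finsupp.single k 1) : V) = x k := by simp
  rw [← h1, ← hg]
  simp

/-- a linear automorphism agrees on a proper subspace with one of determinant one -/
theorem exists_det_one [FiniteDimensional F V] (A : V ≃ₗ[F] V) {W : Submodule F V} (hW : W ≠ ⊤) :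
    ∃ B : V ≃ₗ[F] V, LinearMap.det (B : V →ₗ[F] V) = 1 ∧ ∀ x ∈ W, B x = A x := by
  obtain ⟨v, -, hv⟩ := SetLike.exists_of_lt hW.lt_top
  obtain ⟨f, h1, h2⟩ := LinearMap.exists_extend_of_notMem (0 : W →ₗ[F] F) hv
    ((LinearMap.det (A : V →ₗ[F] V))⁻¹ - 1)
  have d := A.isUnit_det'.ne_zero
  have e : 1 + f v = (LinearMap.det (A : V →ₗ[F] V))⁻¹ := by rw [h2]; ring
  refine ⟨(LinearEquiv.dilatransvection (f := f) (v := v) (e ▸ (inv_ne_zero d).isUnit)).trans A,
    ?_, fun x hx => ?_⟩
  · rw [LinearEquiv.coe_trans, LinearMap.det_comp, LinearEquiv.dilatransvection.coe_toLinearMap,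
      LinearMap.transvection.det, e, mul_inv_cancel₀ d]
  · rw [LinearEquiv.trans_apply, LinearEquiv.dilatransvection.apply,
      show f x = 0 from congr($h1 ⟨x, hx⟩), zero_smul, add_zero]

end CF.Recog
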