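import Cfsg.Agent.Recog.Basic
import Cfsg.Agent.Coprime.Basic
import Cfsg.Agent.Fgs2.SubCount

/-! Permutation groups of bounded fixity. -/

namespace CF.Recog

open MulAction Subgroup
open scoped Pointwise

variable {G Ω : Type*} [Group G] [MulAction G Ω]

theorem smul_mem_fixedBy_of_comm {x g : G} (h : x * g = g * x) {a : Ω} (ha : a ∈ fixedBy Ω g) :
    x • a ∈ fixedBy Ω g := by
  rw [mem_fixedBy, ← mul_smul, ← h, mul_smul, mem_fixedBy.1 ha]

/-- A `p`-group preserving a set with fewer than `p` points fixes each of them. -/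
theorem smul_eq_of_isPGroup [Finite G] {p : ℕ} [Fact p.Prime] {P : Subgroup G} (hP : IsPGroup p P)
    {T : Set Ω} (hT : T.Finite) (hp : T.ncard < p) (h : ∀ x ∈ P, ∀ a ∈ T, x • a ∈ T) {a : Ω}
    (ha : a ∈ T) : P ≤ stabilizer G a := by
  have hs : orbit P a ⊆ T := by rintro _ ⟨x, rfl⟩; exact h x x.2 a ha
  have := (hT.subset hs).to_subtype
  obtain ⟨n, hn⟩ := hP.card_orbit a
  have h1 : p ^ n < p := hn ▸ (Set.ncard_le_ncard hs hT).trans_lt hp
  have h2 : n = 0 := by
    by_contra h0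
    exact h1.not_ge (Nat.le_self_pow h0 p)
  rw [h2, pow_zero] at hn
  have := (Nat.card_eq_one_iff_unique.1 hn).1
  intro x hx
  exact congrArg Subtype.val (Subsingleton.elim (α := orbit P a) ⟨_, mem_orbit a (⟨x, hx⟩ : P)⟩
    ⟨a, mem_orbit_self a⟩)

/-- If non-identity elements fix fewer than `p` points, a `p`-subgroup fixes every point fixed by
one of its non-identity elements. -/
theorem le_stab_of_fixity [Finite G] [Finite Ω] {p : ℕ} [Fact p.Prime]
    (hfix : ∀ g : G, g ≠ 1 → Nat.card (fixedBy Ω g) < p) {P : Subgroup G} (hP : IsPGroup p P)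
    {g : G} (hg : g ∈ P) (hg1 : g ≠ 1) {a : Ω} (ha : g • a = a) : P ≤ stabilizer G a := by
  have : Nontrivial P := ⟨⟨g, hg⟩, 1, fun e => hg1 (congrArg Subtype.val e)⟩
  have := hP.center_nontrivial
  obtain ⟨z, hz⟩ := exists_ne (1 : center P)
  have hc : ∀ x ∈ P, x * (z : P) = (z : P) * x := fun x hx =>
    congrArg Subtype.val (mem_center_iff.1 z.2 ⟨x, hx⟩)
  have h1 : zpowers ((z : P) : G) ≤ stabilizer G a :=
    smul_eq_of_isPGroup (hP.to_le (zpowers_le_of_mem (z : P).2)) (Set.toFinite _) (hfix g hg1)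
      (fun x hx b hb => smul_mem_fixedBy_of_comm (by
        obtain ⟨n, rfl⟩ := hx
        exact ((show Commute g _ from hc g hg).zpow_right n).symm) hb) ha
  exact smul_eq_of_isPGroup hP (Set.toFinite _) (hfix ((z : P) : G) fun e => hz (by
    ext; exact e)) (fun x hx b hb => smul_mem_fixedBy_of_comm (hc x hx) hb) (h1 (mem_zpowers _))

/-- Points fixed by a Sylow subgroup are conjugate under its normaliser. -/
theorem exists_normalizer_smul_eq [Finite G] [IsPretransitive G Ω] {p : ℕ} [Fact p.Prime]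
    (S : Sylow p G) {a b : Ω} (ha : (S : Subgroup G) ≤ stabilizer G a)
    (hb : (S : Subgroup G) ≤ stabilizer G b) :
    ∃ w ∈ normalizer ((S : Subgroup G) : Set G), w • b = a := by
  obtain ⟨x, rfl⟩ := exists_smul_eq G b a
  have k : ∀ T : Sylow p G, (T : Subgroup G) ≤ stabilizer G (x • b) →
      Coprime.IsSylowOf p (T : Subgroup G) (stabilizer G (x • b)) := fun T h =>
    ⟨h, T.isPGroup', fun e => T.not_dvd_index (e.trans (relIndex_dvd_index_of_le h))⟩
  obtain ⟨y, hy, e⟩ := (k (x • S) (by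
    rintro _ ⟨s, hs, rfl⟩
    exact conj_mem_stab.2 (hb hs))).conj (k S ha)
  refine ⟨y * x, ?_, by rw [mul_smul, hy]⟩
  rw [Sylow.coe_subgroup_smul, ← mul_smul, ← map_mul] at e
  exact Solv.conj_smul_eq_iff.1 e

theorem two_dvd_card_of_swap [Finite G] {w : G} {a b : Ω} (hab : a ≠ b) (h1 : w • a = b)
    (h2 : w • b = a) : 2 ∣ Nat.card G := by
  by_contra h
  obtain ⟨n, hn⟩ : Odd (Nat.card G) := Nat.not_even_iff_odd.1 (mt even_iff_two_dvd.1 h)
  have : w ^ 2 ∈ stabilizer G a := by rw [mem_stabilizer_iff, pow_two, mul_smul, h1, h2]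
  have h3 := mem_stabilizer_iff.1 (pow_mem this n)
  have h4 : (w ^ Nat.card G) • a = b := by
    rw [hn, pow_succ', mul_smul, pow_mul, h3, h1]
  rw [pow_card_eq_one', one_smul] at h4
  exact hab h4

theorem card_center_dvd [Finite G] [Finite Ω] [IsPretransitive G Ω] [FaithfulSMul G Ω] (g : G) :
    Nat.card (center G) ∣ Nat.card (fixedBy Ω g) := by
  refine Fgs2.dvd_ncard_of_orbits (G := center G) _ (Set.toFinite _)
    (fun z a ha => smul_mem_fixedBy_of_comm (mem_center_iff.1 z.2 g).symm ha) _ fun a _ => ?_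
  have : stabilizer (center G) a = ⊥ := by
    refine (eq_bot_iff_forall _).2 fun z hz => Subtype.ext (eq_one_of_smul_eq fun b : Ω => ?_)
    obtain ⟨x, rfl⟩ := exists_smul_eq G a b
    exact smul_mem_fixedBy_of_comm (mem_center_iff.1 z.2 x) hz
  rw [this, index_bot]

end CF.Recog
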