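import Cfsg.Agent.Recog.Jordan
import Cfsg.Agent.Recog.Basic

/-! Quasiprimitive groups with a Jordan set. -/

namespace CF.Recog

open MulAction
open scoped Pointwise

variable {G Ω : Type*} [Group G] [MulAction G Ω] [Finite G] [FaithfulSMul G Ω]
  (hqp : ∀ N : Subgroup G, N.Normal → N ≠ ⊥ → IsPretransitive N Ω)
include hqp

omit [Finite G] [FaithfulSMul G Ω] in
theorem trans_of_qp [Nontrivial G] : IsPretransitive G Ω :=
  ⟨fun a b => ((hqp ⊤ inferInstance top_ne_bot).1 a b).elim fun g h => ⟨g, h⟩⟩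

omit [FaithfulSMul G Ω] in
/-- An imprimitive quasiprimitive group acts faithfully and primitively on a block system. -/
theorem exists_quot_of_qp [Nontrivial G] [Nontrivial Ω] (h : ¬IsPreprimitive G Ω) :
    ∃ (M : Subgroup G) (π : Ω → G ⧸ M) (s : ℕ), (∀ (g : G) x, π (g • x) = g • π x) ∧
      IsPreprimitive G (G ⧸ M) ∧ (∀ g : G, (∀ x, g • π x = π x) → g = 1) ∧ π.Surjective ∧ 1 < s ∧
      ∀ T : Set (G ⧸ M), (π ⁻¹' T).ncard = s * T.ncard := by
  have := trans_of_qp hqp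
  have : Finite Ω := finite_of_trans (G := G)
  obtain ⟨a, b, hab⟩ := exists_pair_ne Ω
  obtain ⟨M, hM, h1⟩ := (eq_top_or_exists_le_coatom (stabilizer G a)).resolve_left fun e => by
    obtain ⟨g, rfl⟩ := exists_smul_eq G a b
    exact hab (show g ∈ stabilizer G a from e ▸ trivial).symm
  choose f hf using exists_smul_eq G a
  have k : ∀ g : G, (f (g • a) : G ⧸ M) = g := fun g =>
    QuotientGroup.eq.2 (h1 (by rw [mem_stabilizer_iff, mul_smul, inv_smul_eq_iff, hf]))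
  have e : ∀ (g : G) x, (f (g • x) : G ⧸ M) = g • (f x : G ⧸ M) := fun g x => by
    obtain ⟨y, rfl⟩ := exists_smul_eq G a x
    rw [← mul_smul, k, k]
    rfl
  have : Nontrivial (G ⧸ M) := QuotientGroup.nontrivial_iff.2 hM.1
  have c : ∀ g : G, ((fun x => (f x : G ⧸ M)) ⁻¹' {(g : G ⧸ M)}) = g • orbit M a := fun g => by
    ext x
    obtain ⟨y, rfl⟩ := exists_smul_eq G a x
    rw [Set.mem_smul_set_iff_inv_smul_mem, ← mul_smul, Set.mem_preimage, k, Set.mem_singleton_iff,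
      eq_comm, QuotientGroup.eq]
    refine ⟨fun h => ⟨⟨_, h⟩, rfl⟩, fun ⟨m, h⟩ => ?_⟩
    simpa using mul_mem m.2 (h1 (show (m : G)⁻¹ * (g⁻¹ * y) ∈ stabilizer G a by
      rw [mem_stabilizer_iff, mul_smul, inv_smul_eq_iff]; exact h.symm))
  refine ⟨M, fun x => f x, (orbit M a).ncard, e, (isCoatom_stabilizer_iff_preprimitive G ((1 : G) : G ⧸ M)).1
    (by rwa [stabilizer_quotient]), fun g hg => by_contra fun h2 => ?_,
    fun x => x.inductionOn fun g => ⟨_, k g⟩, ?_, fun T => ?_⟩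
  · have h3 : g ∈ M.normalCore := by
      rw [Subgroup.normalCore_eq_ker]
      ext x
      exact x.inductionOn fun y => (k y ▸ hg (y • a) : g • (y : G ⧸ M) = y)
    refine hM.1 (top_le_iff.1 fun y _ => ?_)
    obtain ⟨n, hn⟩ := (hqp M.normalCore inferInstance fun e => h2 (by simpa [e] using h3)).1 a (y • a)
    simpa using mul_mem (M.normalCore_le n.2) (h1 (show (n : G)⁻¹ * y ∈ stabilizer G a by
      rw [mem_stabilizer_iff, mul_smul, inv_smul_eq_iff]; exact hn.symm))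
  · obtain ⟨m, h2, h3⟩ := SetLike.exists_of_lt (h1.lt_of_ne fun e =>
      h ((isCoatom_stabilizer_iff_preprimitive G a).1 (e ▸ hM)))
    exact (Set.one_lt_ncard (Set.toFinite _)).2 ⟨_, ⟨⟨m, h2⟩, rfl⟩, a, mem_orbit_self a, h3⟩
  · induction T, T.toFinite using Set.Finite.induction_on with
    | empty => simp
    | @insert t T ht _ ih =>
      obtain ⟨g, rfl⟩ := QuotientGroup.mk_surjective t
      rw [Set.ncard_insert_of_notMem ht, Set.insert_eq, Set.preimage_union, Set.ncard_union_eq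
        ((Set.disjoint_singleton_left.2 ht).preimage _), ih, c, Set.ncard_smul_set]
      ring

omit hqp [Finite G] [FaithfulSMul G Ω] in
theorem IsJ.quot {X : Type*} [MulAction G X] {π : Ω → X} (h1 : ∀ (g : G) x, π (g • x) = g • π x)
    (h2 : ∀ g : G, (∀ x, g • π x = π x) → g = 1) {Γ : Set Ω} (h : IsJ G Γ) (h3 : Γ.Nontrivial) :
    π ⁻¹' (π '' Γ) = Γ ∧ (π '' Γ).Nontrivial := by
  have k : ∀ x ∈ Γ, (∀ g : G, (∀ z ∉ Γ, g • z = z) → g • π x = π x) → False := fun x hx hf => by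
    obtain ⟨y, hy, e⟩ := h3.exists_ne x
    obtain ⟨g, h4, rfl⟩ := h x hx y hy
    refine e (by
      rw [h2 g fun z => ?_, one_smul]
      by_cases hz : z ∈ Γ
      · obtain ⟨k, h5, rfl⟩ := h x hx z hz
        rw [h1, hf k h5, hf g h4]
      · rw [← h1, h4 z hz])
  refine ⟨(Set.subset_preimage_image π Γ).antisymm' fun y ⟨x, hx, e⟩ => by_contra fun hy =>
    k x hx fun g hg => by rw [e, ← h1, hg y hy], Set.not_subsingleton_iff.1 fun e => ?_⟩
  obtain ⟨x, hx⟩ := h3.nonempty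
  exact k x hx fun g hg => e ⟨_, smul_mem_of_fix hg hx, h1 g x⟩ ⟨x, hx, rfl⟩

omit hqp [Finite G] [FaithfulSMul G Ω] in
theorem IsJ.nontrivial {Γ : Set Ω} (h : IsJ G Γ) (h3 : Γ.Nontrivial) : Nontrivial G := by
  obtain ⟨x, hx, y, hy, e⟩ := h3
  obtain ⟨g, -, rfl⟩ := h x hx y hy
  exact ⟨g, 1, fun e' => e (by rw [e', one_smul])⟩

end CF.Recog
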